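import Mathlib
import Cfsg.Agent.Lib.Ambiv.Basic
import Cfsg.Agent.Lib.InvHarv.QuatAut
import Cfsg.Agent.Lib.LocStr.RankOne
import Cfsg.Agent.Lib.Dickson.SmallRecog
import Cfsg.Agent.S3742
import Cfsg.Agent.S2427

/-!
# Groups with a self-centralizing normal quaternion subgroup of order 8
-/

set_option autoImplicit false

namespace CfsgLib.Ambiv

open Subgroup Cfsg.Agent

abbrev Q8' := QuaternionGroup 2

def c3 : Equiv.Perm (Fin 4) := Equiv.swap 0 1 * Equiv.swap 1 2
def s2 : Equiv.Perm (Fin 4) := Equiv.swap 0 1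

noncomputable def tauD : DihedralGroup 3 →* Equiv.Perm (Fin 4) :=
  Dickson.dihHom c3 s2 (by decide) (by decide) (by decide)

noncomputable def alD : DihedralGroup 3 →* MulAut Q8' := S3742.hom.comp tauD

theorem hom_apply (σ : Equiv.Perm (Fin 4)) (w : Q8') : S3742.hom σ w = S3742.fn σ w := rfl

theorem exists_dih (d : DihedralGroup 3) : ∃ n : Fin 3, d = DihedralGroup.r ((n.val : ℤ) : ZMod 3) ∨
    d = DihedralGroup.sr ((n.val : ℤ) : ZMod 3) := by
  revert d; decide

theorem iso_sdp {X : Type*} [Group X] [Finite X] (f : Q8' →* X) (hf : Function.Injective f)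
    {g t : X} (hg : g ^ 3 = 1) (ht : t * t = 1) (htg : t * g * t⁻¹ = g⁻¹)
    (cg : ∀ w, g * f w * g⁻¹ = f (S3742.fn c3 w)) (ct : ∀ w, t * f w * t⁻¹ = f (S3742.fn s2 w))
    (h48 : Nat.card X = 48) : Nonempty (Q8' ⋊[alD] DihedralGroup 3 ≃* X) := by
  let s : DihedralGroup 3 →* X := Dickson.dihHom g t hg ht htg
  have hpow : ∀ n : ℕ, ∀ w, g ^ n * f w * (g ^ n)⁻¹ = f (S3742.fn (c3 ^ n) w) := by
    intro n
    induction n with
    | zero => intro w; rw [pow_zero, pow_zero, (S3742.fn_one 1).2 rfl]; simp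
    | succ n ih => intro w; rw [pow_succ', pow_succ', S3742.fn_mul, ← cg, ← ih]; group
  have hc : ∀ d w, s d * f w * (s d)⁻¹ = f (alD d w) := by
    intro d w
    obtain ⟨n, rfl | rfl⟩ := exists_dih d
    · simp only [s, alD, tauD, MonoidHom.comp_apply, Dickson.dihHom_r, zpow_natCast, hom_apply]
      exact hpow n w
    · simp only [s, alD, tauD, MonoidHom.comp_apply, Dickson.dihHom_sr, zpow_natCast, hom_apply]
      rw [S3742.fn_mul, ← ct, ← hpow]; group
  let Φ : Q8' ⋊[alD] DihedralGroup 3 →* X := SemidirectProduct.lift f s (fun d => by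
    ext w
    exact (hc d w).symm)
  have hΦ : Function.Injective Φ := by
    rw [injective_iff_map_eq_one]
    rintro ⟨w, d⟩ h
    have h1 : f w * s d = 1 := h
    have h2 : s d = f w⁻¹ := by rw [map_inv]; exact eq_inv_of_mul_eq_one_right h1
    have h3 : ∀ x, alD d x = w⁻¹ * x * w := fun x => hf (by
      rw [← hc, h2]; simp)
    have h4 : d = 1 := by
      have key : ∀ n : Fin 3, ∀ w : Q8', ((∀ x, S3742.fn (c3 ^ n.val) x = w⁻¹ * x * w) → n = 0) ∧
          ¬ ∀ x, S3742.fn (s2 * c3 ^ n.val) x = w⁻¹ * x * w := by decide +kernel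
      obtain ⟨n, rfl | rfl⟩ := exists_dih d
      · simp only [alD, tauD, MonoidHom.comp_apply, Dickson.dihHom_r, zpow_natCast,
          hom_apply] at h3
        rw [(key n w).1 h3]; rfl
      · simp only [alD, tauD, MonoidHom.comp_apply, Dickson.dihHom_sr, zpow_natCast,
          hom_apply] at h3
        exact absurd h3 (key n w).2
    subst h4
    rw [map_one, mul_one] at h1
    rw [hf (h1.trans (map_one f).symm)]; rfl
  refine ⟨MulEquiv.ofBijective Φ ?_⟩
  rw [Nat.bijective_iff_injective_and_card]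
  refine ⟨hΦ, ?_⟩
  rw [h48, SemidirectProduct.card, Nat.card_eq_fintype_card, QuaternionGroup.card,
    DihedralGroup.nat_card]

def gM : GL (Fin 2) (ZMod 3) := ⟨!![0, 2; 1, 2], !![2, 1; 2, 0], by decide, by decide⟩
def tM : GL (Fin 2) (ZMod 3) := ⟨!![0, 1; 1, 0], !![0, 1; 1, 0], by decide, by decide⟩

theorem iso_gl : Nonempty (Q8' ⋊[alD] DihedralGroup 3 ≃* GL (Fin 2) (ZMod 3)) := by
  refine iso_sdp (Matrix.SpecialLinearGroup.toGL.comp S2427.qhom)
    (Matrix.SpecialLinearGroup.toGL_injective.comp S2427.qhom_inj) (g := gM) (t := tM)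
    (by decide +kernel) (by decide +kernel) (by decide +kernel) ?_ ?_ ?_
  · have : ∀ w, gM.val * (S2427.qf w).1 * gM.inv = (S2427.qf (S3742.fn c3 w)).1 := by
      decide +kernel
    exact fun w => Units.ext (this w)
  · have : ∀ w, tM.val * (S2427.qf w).1 * tM.inv = (S2427.qf (S3742.fn s2 w)).1 := by
      decide +kernel
    exact fun w => Units.ext (this w)
  · rw [Matrix.card_GL_field]
    simp [Fin.prod_univ_two]

theorem q48 {X : Type*} [Group X] [Finite X] {R : Subgroup X} [R.Normal]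
    (hC : centralizer (R : Set X) ≤ R) (e : R ≃* Q8')
    (hn : ∀ P : Sylow 2 X, ¬ (P : Subgroup X).Normal) :
    Nonempty (X ≃* GL (Fin 2) (ZMod 3)) ∨
    (Nat.card X = 48 ∧ Nat.card (center X) = 2 ∧ Nonempty (X ⧸ center X ≃* Equiv.Perm (Fin 4)) ∧
      ∀ P : Sylow 2 X, Nonempty (↥(P : Subgroup X) ≃* QuaternionGroup 4)) := by
  classical
  haveI : Fact (Nat.Prime 2) := ⟨Nat.prime_two⟩
  have hi : Function.Injective S3742.hom := (injective_iff_map_eq_one S3742.hom).2 fun σ h =>
    (S3742.fn_one σ).1 fun x => congrArg (fun α : MulAut Q8' => α x) h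
  have hb : Function.Bijective S3742.hom := hi.bijective_of_nat_card_le (by
    rw [Nat.card_perm]
    simpa [Nat.factorial] using CfsgLib.FrobCompl.card_mulAut_Q8_le)
  let f : Q8' →* X := R.subtype.comp e.symm.toMonoidHom
  have hf : Function.Injective f := R.subtype_injective.comp e.symm.injective
  have hfR : ∀ w, f w ∈ R := fun w => (e.symm w).2
  have hRf : ∀ x ∈ R, ∃ w, f w = x := fun x hx => ⟨e ⟨x, hx⟩, by simp [f]⟩
  let ρ : X →* Equiv.Perm (Fin 4) := (MulEquiv.ofBijective _ hb).symm.toMonoidHom.comp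
    ((MulAut.congr e).toMonoidHom.comp MulAut.conjNormal)
  have hρ : ∀ g w, g * f w * g⁻¹ = f (S3742.fn (ρ g) w) := by
    intro g w
    rw [← hom_apply]
    have : S3742.hom (ρ g) = MulAut.congr e (MulAut.conjNormal g) :=
      (MulEquiv.ofBijective _ hb).apply_symm_apply _
    rw [this]
    simp [f]
  set z := f (QuaternionGroup.a 2) with hz
  have hzc : ∀ g, g * z * g⁻¹ = z := fun g => by
    have : ∀ σ, S3742.fn σ (QuaternionGroup.a 2) = QuaternionGroup.a 2 := by decide +kernel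
    rw [hz, hρ, this]
  have hz1 : z ≠ 1 := fun h => absurd (hf (h.trans (map_one f).symm)) (by decide)
  have hz2 : z * z = 1 := by rw [hz, ← map_mul, show QuaternionGroup.a 2 * QuaternionGroup.a 2 = (1 : Q8') by decide, map_one]
  have hcen : ∀ x, (∀ w, x * f w * x⁻¹ = f w) → x = 1 ∨ x = z := by
    intro x hx
    obtain ⟨u, rfl⟩ := hRf x (hC fun y hy => by
      obtain ⟨w, rfl⟩ := hRf y hy
      exact (mul_inv_eq_iff_eq_mul.mp (hx w)).symm)
    have key : ∀ u : Q8', (∀ w, u * w * u⁻¹ = w) → u = 1 ∨ u = QuaternionGroup.a 2 := by decide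
    rcases key u (fun w => hf (by simpa using hx w)) with h | h
    · left; rw [h, map_one]
    · right; rw [h]
  have hker : ∀ x, ρ x = 1 ↔ x = 1 ∨ x = z := by
    intro x
    constructor
    · intro h
      exact hcen x fun w => by rw [hρ, h, (S3742.fn_one 1).2 rfl]
    · intro h
      refine (S3742.fn_one _).1 fun w => hf ?_
      rw [← hρ]
      rcases h with rfl | rfl
      · simp
      · have := hzc (f w)
        rw [mul_inv_eq_iff_eq_mul] at this ⊢
        exact this.symm
  have hkc : center X = ρ.ker := by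
    ext x
    rw [MonoidHom.mem_ker, hker, mem_center_iff]
    constructor
    · intro h
      exact hcen x fun w => by rw [← h]; simp
    · rintro (rfl | rfl) g
      · simp
      · exact mul_inv_eq_iff_eq_mul.mp (hzc g)
  have hk2 : Nat.card ρ.ker = 2 := by
    have : ρ.ker = zpowers z := by
      refine le_antisymm (fun x hx => ?_) (zpowers_le.mpr ((hker z).2 (Or.inr rfl)))
      rcases (hker x).1 hx with rfl | rfl
      · exact one_mem _
      · exact mem_zpowers _
    rw [this, Nat.card_zpowers]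
    exact orderOf_eq_prime (by rw [sq, hz2]) hz1
  have hR8 : Nat.card R = 8 := by
    rw [Nat.card_congr e.toEquiv, Nat.card_eq_fintype_card, QuaternionGroup.card]
  have hR2 : IsPGroup 2 R := IsPGroup.of_card (n := 3) hR8
  have hcard : Nat.card X = 2 * Nat.card ρ.range := by
    rw [← ρ.ker.card_mul_index, hk2, index_ker]
  have h24 : Nat.card (Equiv.Perm (Fin 4)) = 24 := by rw [Nat.card_perm]; simp [Nat.factorial]
  have hsyl : ∀ P : Sylow 2 X, ∃ k, Nat.card (P : Subgroup X) = 2 ^ k ∧ R ≤ P ∧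
      2 ^ k * (P : Subgroup X).index = Nat.card X ∧ ¬ 2 ∣ (P : Subgroup X).index := fun P => by
    obtain ⟨k, hk⟩ := P.isPGroup'.exists_card_eq
    exact ⟨k, hk, hR2.le_sylow_of_normal P, by rw [← hk, card_mul_index], P.not_dvd_index⟩
  have h48 : Nat.card X = 48 := by
    obtain ⟨P⟩ : Nonempty (Sylow 2 X) := inferInstance
    obtain ⟨k, hk, hRP, h1, h2⟩ := hsyl P
    have d1 : Nat.card X ∣ 48 := by
      rw [hcard]; exact Nat.mul_dvd_mul_left 2 (h24 ▸ ρ.range.card_subgroup_dvd_card)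
    have hne : (P : Subgroup X) ≠ R := fun h => hn P (h ▸ inferInstance)
    have hne' : (P : Subgroup X).index ≠ 1 := fun h => hn P (by
      rw [index_eq_one.mp h]; infer_instance)
    have hlt : 8 < 2 ^ k := by
      rw [← hk, ← hR8]
      by_contra hh
      exact hne (eq_of_le_of_card_ge hRP (not_lt.mp hh)).symm
    have hk4 : 4 ≤ k := by
      by_contra hh
      have : k ≤ 3 := by omega
      have := Nat.pow_le_pow_right (show 0 < 2 by norm_num) this
      omega
    obtain ⟨j, rfl⟩ := Nat.exists_eq_add_of_le hk4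
    rw [← h1, pow_add, mul_assoc] at d1 ⊢
    have d2 : 2 ^ j * (P : Subgroup X).index ∣ 3 := Nat.dvd_of_mul_dvd_mul_left (by norm_num) d1
    rcases (Nat.dvd_prime Nat.prime_three).mp d2 with h | h
    · exact absurd (Nat.eq_one_of_mul_eq_one_left h) hne'
    · rw [h]; rfl
  have hsurj : Function.Surjective ρ := by
    rw [← MonoidHom.range_eq_top]
    exact eq_top_of_card_eq _ (by omega)
  by_cases hinv : ∃ t : X, t * t = 1 ∧ t ≠ 1 ∧ t ≠ z
  · left
    obtain ⟨t, ht2, ht1, htz⟩ := hinv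
    have key : ∀ σ : Equiv.Perm (Fin 4), σ * σ = 1 → (∃ τ, τ * σ * τ⁻¹ = s2) ∨
        ∃ u : Q8', ∀ w, S3742.fn σ w = u * w * u⁻¹ := by decide +kernel
    rcases key (ρ t) (by rw [← map_mul, ht2, map_one]) with ⟨τ, hτ⟩ | ⟨u, hu⟩
    swap
    · exfalso
      have h1 := hcen ((f u)⁻¹ * t) fun w => by
        calc (f u)⁻¹ * t * f w * ((f u)⁻¹ * t)⁻¹ = (f u)⁻¹ * (t * f w * t⁻¹) * f u := by group
          _ = f w := by rw [hρ, hu]; simp [mul_assoc]
      have h2 : t ∈ R := by
        have : (f u)⁻¹ * t ∈ R := by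
          rcases h1 with h | h <;> rw [h]
          · exact one_mem _
          · exact hfR _
        simpa using R.mul_mem (hfR u) this
      obtain ⟨v, rfl⟩ := hRf t h2
      have k2 : ∀ v : Q8', v * v = 1 → v = 1 ∨ v = QuaternionGroup.a 2 := by decide
      rcases k2 v (hf (by rw [map_mul, ht2, map_one])) with h | h
      · exact ht1 (by rw [h, map_one])
      · exact htz (by rw [h])
    obtain ⟨y, rfl⟩ := hsurj τ
    obtain ⟨g0, hg0⟩ := hsurj c3
    set t' := y * t * y⁻¹ with ht'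
    have hρt : ρ t' = s2 := by rw [ht', map_mul, map_mul, map_inv, hτ]
    have ht'2 : t' * t' = 1 := by
      rw [ht']; calc y * t * y⁻¹ * (y * t * y⁻¹) = y * (t * t) * y⁻¹ := by group
        _ = 1 := by rw [ht2]; simp
    set g := g0 ^ 4 with hg
    have hρg : ρ g = c3 := by rw [hg, map_pow, hg0]; decide
    have hg3 : g ^ 3 = 1 := by
      rw [hg, ← pow_mul, mul_comm, pow_mul]
      rcases (hker (g0 ^ 3)).1 (by rw [map_pow, hg0]; decide) with h | h <;> rw [h]
      · exact one_pow _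
      · rw [show 4 = 2 * 2 from rfl, pow_mul, sq z, hz2, one_pow]
    have htg : t' * g * t'⁻¹ = g⁻¹ := by
      rcases (hker (t' * g * t'⁻¹ * g)).1 (by
        rw [map_mul, map_mul, map_mul, map_inv, hρt, hρg]; decide) with h | h
      · exact eq_inv_of_mul_eq_one_left h
      · exfalso
        have h1 : t' * g * t'⁻¹ = z * g⁻¹ := eq_mul_inv_of_mul_eq h
        have h2 : (z * g⁻¹) ^ 3 = 1 := by rw [← h1, conj_pow, hg3]; simp
        have hcm : Commute z g⁻¹ := (mul_inv_eq_iff_eq_mul.mp (hzc g⁻¹)).symm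
        rw [hcm.mul_pow, inv_pow, hg3, pow_succ, sq, hz2] at h2
        exact hz1 (by simpa using h2)
    obtain ⟨e1⟩ := iso_sdp f hf hg3 ht'2 htg (fun w => by rw [hρ, hρg]) (fun w => by rw [hρ, hρt]) h48
    obtain ⟨e2⟩ := iso_gl
    exact ⟨e1.symm.trans e2⟩
  · right
    push Not at hinv
    refine ⟨h48, hkc ▸ hk2, ⟨(QuotientGroup.quotientMulEquivOfEq hkc).trans
      (QuotientGroup.quotientKerEquivOfSurjective ρ hsurj)⟩, fun P => ?_⟩
    obtain ⟨k, hk, hRP, h1, h2⟩ := hsyl P
    have hP16 : Nat.card (P : Subgroup X) = 16 := by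
      rw [P.card_eq_multiplicity, h48]
      have : Nat.factorization 48 2 = 4 := by
        rw [show 48 = 2 ^ 4 * 3 from rfl, Nat.factorization_mul (by norm_num) (by norm_num),
          Nat.Prime.factorization_pow Nat.prime_two, Nat.Prime.factorization Nat.prime_three]
        simp
      rw [this]; rfl
    rcases Frob.cyclic_or_quaternion_of_forall_mem_zpowers P.isPGroup' (fun x y hx hy => by
      have h3 : ∀ u : (P : Subgroup X), orderOf u = 2 → (u : X) = z := fun u hu =>
        hinv u (by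
          rw [← sq]
          exact congrArg Subtype.val (orderOf_dvd_iff_pow_eq_one.mp hu.dvd))
          (fun h => by rw [show u = 1 from Subtype.ext h] at hu; simp at hu)
      rw [Subtype.ext ((h3 y hy).trans (h3 x hx).symm)]
      exact mem_zpowers x) with h | ⟨-, n, hn1, ⟨e'⟩⟩
    · exfalso
      have := h.commGroup
      have hcm := h.isMulCommutative.is_comm.comm ⟨_, hRP (hfR (QuaternionGroup.a 1))⟩
        ⟨_, hRP (hfR (QuaternionGroup.xa 0))⟩
      have h4 : f (QuaternionGroup.a 1) * f (QuaternionGroup.xa 0) =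
        f (QuaternionGroup.xa 0) * f (QuaternionGroup.a 1) := congrArg Subtype.val hcm
      rw [← map_mul, ← map_mul] at h4
      exact absurd (hf h4) (by decide)
    · have h4 := Nat.card_congr e'.toEquiv
      rw [hP16, Nat.card_eq_fintype_card, QuaternionGroup.card] at h4
      have h5 : 2 ^ n = 4 := by omega
      rw [h5] at e'
      exact ⟨e'⟩

theorem invol_eq_of_rank {G : Type*} [Group G] [Finite G]
    (hI : ∀ S T : Sylow 2 G, S ≠ T → Cfsg.PRankLE 2 1 ↥((S : Subgroup G) ⊓ (T : Subgroup G)))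
    {N : Subgroup G} [N.Normal] (hN : Odd (Nat.card N)) {R : Subgroup (G ⧸ N)} [R.Normal]
    (hR : IsPGroup 2 R) (hn : ∀ P : Sylow 2 (G ⧸ N), ¬ (P : Subgroup (G ⧸ N)).Normal)
    (x y : R) (hx : orderOf x = 2) (hy : orderOf y = 2) : y ∈ zpowers x := by
  classical
  haveI : Fact (Nat.Prime 2) := ⟨Nat.prime_two⟩
  set π := QuotientGroup.mk' N with hπ
  have hs : Function.Surjective π := QuotientGroup.mk'_surjective N
  set K := R.comap π with hK
  obtain ⟨A⟩ : Nonempty (Sylow 2 K) := inferInstance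
  set A' := (A : Subgroup K).map K.subtype with hA'
  have hA2 : IsPGroup 2 A' := A.isPGroup'.map _
  obtain ⟨S, hS⟩ := hA2.exists_le_sylow
  have hF : normalizer (A' : Set G) ⊔ K = ⊤ := Sylow.normalizer_sup_eq_top A
  obtain ⟨g, hg, hgS⟩ : ∃ g ∈ normalizer (A' : Set G), S ≠ g • S := by
    by_contra hh
    push Not at hh
    apply hn (S.mapSurjective hs)
    rw [← normalizer_eq_top_iff, eq_top_iff, ← map_top_of_surjective π hs, ← hF, Subgroup.map_sup,
      sup_le_iff]
    constructor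
    · refine (map_mono fun g hg => ?_).trans (le_normalizer_map π)
      exact Sylow.smul_eq_iff_mem_normalizer.mp (hh g hg).symm
    · rw [map_comap_eq_self_of_surjective hs]
      exact (hR.le_sylow_of_normal _).trans le_normalizer
  have hle : A' ≤ (S : Subgroup G) ⊓ (g • S : Sylow 2 G) := by
    refine le_inf hS fun a ha => ?_
    rw [Sylow.coe_subgroup_smul, mem_pointwise_smul_iff_inv_smul_mem]
    refine hS ?_
    have := (mem_normalizer_iff''.mp hg a).1 ha
    simpa using this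
  have hD2 : IsPGroup 2 ↥((S : Subgroup G) ⊓ (g • S : Sylow 2 G)) := S.isPGroup'.to_le inf_le_left
  have hcq := Frob.cyclic_or_quaternion_of_rank_one hD2 (fun E hE h4 => by
    have := hI S (g • S) hgS E ⟨⟨fun a b => by
      have h1 : ∀ u : E, u⁻¹ = u := fun u => by
        rw [inv_eq_iff_mul_eq_one, ← sq]; exact Subtype.ext (hE u u.2)
      rw [← h1 (a * b), mul_inv_rev, h1, h1]⟩⟩ hE
    omega)
  have hlift : ∀ u : R, orderOf u = 2 → ∃ a ∈ A', π a = u ∧ orderOf a = 2 := by
    intro u hu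
    have hs' := π.subgroupComap_surjective_of_surjective R hs
    have htop : ((A.mapSurjective hs' : Sylow 2 R) : Subgroup R) = ⊤ :=
      ((A.mapSurjective hs').is_maximal' (hR.to_subgroup ⊤) le_top).symm
    have hu' : u ∈ ((A.mapSurjective hs' : Sylow 2 R) : Subgroup R) := htop ▸ mem_top u
    obtain ⟨a, ha, e⟩ := hu'
    have e' : π a = u := congrArg Subtype.val e
    refine ⟨a, ⟨a, ha, rfl⟩, e', ?_⟩
    obtain ⟨k, hk⟩ := A.isPGroup' ⟨a, ha⟩
    rw [← orderOf_mk hN (k := k) (congrArg (fun v : A => ((v : K) : G)) hk)]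
    rw [← Subgroup.orderOf_coe, ← e'] at hu
    exact hu
  obtain ⟨a, ha, ea, oa⟩ := hlift x hx
  obtain ⟨b, hb, eb, ob⟩ := hlift y hy
  obtain ⟨i, hi⟩ := mem_zpowers_iff.mp (LocStr.unique_of_cyclic_or_quaternion hD2
    (hcq.imp id fun ⟨_, n, _, h⟩ => ⟨_, h⟩) a (hle ha) b (hle hb) oa (ob ▸ pow_orderOf_eq_one b))
  exact mem_zpowers_iff.mpr ⟨i, Subtype.ext (by rw [SubgroupClass.coe_zpow, ← ea, ← eb, ← hi, map_zpow])⟩

theorem s3304 {G : Type*} [Group G] [Finite G] (hs : Group.IsSolvable G)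
    (hI : ∀ S T : Sylow 2 G, S ≠ T → Cfsg.PRankLE 2 1 ↥((S : Subgroup G) ⊓ (T : Subgroup G))) :
    (∃ P : Sylow 2 (G ⧸ Cfsg.oddCore G), (P : Subgroup (G ⧸ Cfsg.oddCore G)).Normal) ∨
    Nonempty ((G ⧸ Cfsg.oddCore G) ≃* GL (Fin 2) (ZMod 3)) ∨
    (Nat.card (G ⧸ Cfsg.oddCore G) = 48 ∧ Nat.card ↥(Subgroup.center (G ⧸ Cfsg.oddCore G)) = 2 ∧
      Nonempty ((G ⧸ Cfsg.oddCore G) ⧸ Subgroup.center (G ⧸ Cfsg.oddCore G) ≃* Equiv.Perm (Fin 4)) ∧
      ∀ P : Sylow 2 (G ⧸ Cfsg.oddCore G),
        Nonempty (↥(P : Subgroup (G ⧸ Cfsg.oddCore G)) ≃* QuaternionGroup 4)) := by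
  haveI : Fact (Nat.Prime 2) := ⟨Nat.prime_two⟩
  by_cases hn : ∃ P : Sylow 2 (G ⧸ Cfsg.oddCore G), (P : Subgroup (G ⧸ Cfsg.oddCore G)).Normal
  · exact Or.inl hn
  right
  push Not at hn
  have hC := InvHarv.char_p_quotient_of_isSolvable 2 hs
  have hR := Core.isPGroup_pCore 2 (G ⧸ Cfsg.oddCore G)
  haveI := Core.pCore_characteristic 2 (G ⧸ Cfsg.oddCore G)
  have hnot : ¬ ∀ g : G ⧸ Cfsg.oddCore G, (orderOf g).Coprime 2 →
      g ∈ centralizer (Cfsg.pCore 2 (G ⧸ Cfsg.oddCore G) : Set (G ⧸ Cfsg.oddCore G)) := by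
    intro h
    have h2 := InvHarv.isPGroup_of_char_p hC h
    obtain ⟨P⟩ : Nonempty (Sylow 2 (G ⧸ Cfsg.oddCore G)) := inferInstance
    apply hn P
    rw [← P.is_maximal' (h2.to_subgroup ⊤) le_top]
    infer_instance
  rcases Frob.cyclic_or_quaternion_of_forall_mem_zpowers hR
    (invol_eq_of_rank hI (Core.odd_card_oddCore G) hR hn) with h | ⟨-, n, hn1, ⟨e⟩⟩
  · exact absurd (fun g hg => InvHarv.mem_centralizer_of_cyclic_two h hR
      (by rw [normalizer_eq_top]; trivial) hg) hnot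
  · by_cases h1 : n = 1
    · subst h1
      exact q48 hC e hn
    · obtain ⟨a, b, h⟩ := InvHarv.exists_quatGens (by positivity) e
      refine absurd (fun g hg => h.mem_centralizer hR le_rfl ?_
        (by rw [normalizer_eq_top]; trivial) hg) hnot
      rw [inf_eq_right.mpr h.zpowers_le, Nat.card_zpowers, h.ord]
      obtain ⟨m, rfl⟩ := Nat.exists_eq_add_of_le (show 2 ≤ n by omega)
      have : 0 < 2 ^ m := by positivity
      rw [pow_add]; omega

end CfsgLib.Ambiv
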